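import Mathlib
import Cfsg.Prelude.Def_Involutions
import Cfsg.Agent.Lib.Helper8.Basic
import Cfsg.Agent.Lib.Helper8.Isolated

set_option autoImplicit false

namespace Cfsg.Agent.Lib.Helper8

variable {G : Type*} [Group G]

theorem conjMap_centralizer_singleton_se (y g : G) :
    (Subgroup.centralizer ({g⁻¹ * y * g} : Set G)).map (MulAut.conj g).toMonoidHom
      = Subgroup.centralizer ({y} : Set G) := by
  ext z
  rw [mem_conjMap, Subgroup.mem_centralizer_singleton_iff, Subgroup.mem_centralizer_singleton_iff]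
  constructor
  · intro h
    have : g * (g⁻¹ * z * g * (g⁻¹ * y * g)) * g⁻¹ = g * (g⁻¹ * y * g * (g⁻¹ * z * g)) * g⁻¹ := by rw [h]
    simpa [mul_assoc] using this
  · intro h
    calc g⁻¹ * z * g * (g⁻¹ * y * g) = g⁻¹ * (z * y) * g := by group
      _ = g⁻¹ * (y * z) * g := by rw [h]
      _ = g⁻¹ * y * g * (g⁻¹ * z * g) := by group

theorem orderOf_conj_two' {z : G} (hz : orderOf z = 2) (g : G) : orderOf (g⁻¹ * z * g) = 2 := by
  have := orderOf_conj_two hz g⁻¹
  simpa using this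

theorem two_dvd_card_of_mem {H : Subgroup G} {t : G} (ht : orderOf t = 2) (htH : t ∈ H) :
    2 ∣ Nat.card H := by
  have := orderOf_dvd_natCard (⟨t, htH⟩ : H)
  rwa [Subgroup.orderOf_mk, ht] at this

theorem exists_invol_of_not_odd [Finite G] {H : Subgroup G} (h : ¬ Odd (Nat.card H)) :
    ∃ t ∈ H, orderOf t = 2 := by
  rw [Nat.not_odd_iff_even, even_iff_two_dvd] at h
  obtain ⟨y, hy⟩ := exists_prime_orderOf_dvd_card' 2 h
  exact ⟨y, y.2, by rw [Subgroup.orderOf_coe]; exact hy⟩

theorem orderOf_eq_two_of {w : G} (h1 : w ≠ 1) (h2 : w * w = 1) : orderOf w = 2 := by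
  apply orderOf_eq_prime _ h1
  rw [pow_two]; exact h2

/-- two involutions whose product has even order commute with a common involution -/
theorem exists_central_invol_of_even [Finite G] {z t : G} (hz : z * z = 1) (ht : t * t = 1)
    (h : Even (orderOf (t * z))) : ∃ w : G, orderOf w = 2 ∧ Commute w z ∧ Commute w t := by
  obtain ⟨m, hm⟩ := h
  have hpos : 0 < orderOf (t * z) := orderOf_pos _
  have hm0 : 0 < m := by omega
  have hw1 : (t * z) ^ m ≠ 1 := by
    intro h
    have := orderOf_le_of_pow_eq_one hm0 h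
    omega
  have hw2 : (t * z) ^ m * (t * z) ^ m = 1 := by
    rw [← pow_add, ← hm, pow_orderOf_eq_one]
  have hwinv : ((t * z) ^ m)⁻¹ = (t * z) ^ m := inv_eq_of_mul_eq_one_left hw2
  refine ⟨(t * z) ^ m, orderOf_eq_two_of hw1 hw2, ?_, ?_⟩
  · have h1 := inverts_pow (invol_inverts_mul hz ht) m
    rw [hwinv] at h1
    show (t * z) ^ m * z = z * (t * z) ^ m
    calc (t * z) ^ m * z = (z * (t * z) ^ m * z⁻¹) * z := by rw [h1]
      _ = z * (t * z) ^ m := by group
  · have h1 := inverts_pow (invol_inverts_mul' hz ht) m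
    rw [hwinv] at h1
    show (t * z) ^ m * t = t * (t * z) ^ m
    calc (t * z) ^ m * t = (t * (t * z) ^ m * t⁻¹) * t := by rw [h1]
      _ = t * (t * z) ^ m := by group

/-- two involutions whose product has odd order are conjugate in the dihedral group they generate -/
theorem exists_conj_of_odd {z t : G} (hz : z * z = 1) (ht : t * t = 1)
    (h : Odd (orderOf (t * z))) : ∃ j : ℕ, z * (t * z) ^ j * z⁻¹ = ((t * z) ^ j)⁻¹ ∧
      (t * z) ^ j * z * ((t * z) ^ j)⁻¹ = t := by
  have hinv : z * (t * z) * z⁻¹ = (t * z)⁻¹ := invol_inverts_mul hz ht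
  obtain ⟨r, hr⟩ := h
  refine ⟨r + 1, inverts_pow hinv _, ?_⟩
  rw [conj_by_pow_of_inverts hinv]
  have : 2 * (r + 1) = orderOf (t * z) + 1 := by omega
  rw [this, pow_succ, pow_orderOf_eq_one, one_mul, mul_assoc, hz, mul_one]

theorem conj_pow_of_inverts {a c : G} (h : a * c * a⁻¹ = c⁻¹) (j : ℕ) :
    a ^ j * c * (a ^ j)⁻¹ = c ∨ a ^ j * c * (a ^ j)⁻¹ = c⁻¹ := by
  induction j with
  | zero => left; simp
  | succ n ih =>
    have e : a ^ (n + 1) * c * (a ^ (n + 1))⁻¹ = a ^ n * (a * c * a⁻¹) * (a ^ n)⁻¹ := by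
      rw [pow_succ]; group
    rw [e, h]
    have e2 : a ^ n * c⁻¹ * (a ^ n)⁻¹ = (a ^ n * c * (a ^ n)⁻¹)⁻¹ := by group
    rw [e2]
    rcases ih with ih | ih
    · right; rw [ih]
    · left; rw [ih, inv_inv]

/-- if the involution `t` centralizes `c`, the involution `i` inverts `c` and `i t` has odd order,
then `c ^ 2 = 1`. -/
theorem sq_eq_one_of_centralizes_of_inverts {t i c : G} (ht : t * t = 1) (hi : i * i = 1)
    (hodd : Odd (orderOf (i * t))) (hc : t * c = c * t) (hinv : i * c * i⁻¹ = c⁻¹) : c * c = 1 := by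
  obtain ⟨j, -, hj⟩ := exists_conj_of_odd ht hi hodd
  have h1 : (i * t) * c * (i * t)⁻¹ = c⁻¹ := by
    calc (i * t) * c * (i * t)⁻¹ = i * (t * c) * t⁻¹ * i⁻¹ := by group
      _ = i * (c * t) * t⁻¹ * i⁻¹ := by rw [hc]
      _ = i * c * i⁻¹ := by group
      _ = c⁻¹ := hinv
  have h0 := conj_pow_of_inverts h1 j
  generalize (i * t) ^ j = k at hj h0
  -- `i` centralizes `k c k⁻¹`
  have h2 : i * (k * c * k⁻¹) * i⁻¹ = k * c * k⁻¹ := by
    calc i * (k * c * k⁻¹) * i⁻¹ = (k * t * k⁻¹) * (k * c * k⁻¹) * (k * t * k⁻¹)⁻¹ := by rw [hj]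
      _ = k * ((t * c) * t⁻¹) * k⁻¹ := by group
      _ = k * ((c * t) * t⁻¹) * k⁻¹ := by rw [hc]
      _ = k * c * k⁻¹ := by group
  have h3 : i * c * i⁻¹ = c := by
    rcases h0 with h | h
    · rwa [h] at h2
    · rw [h] at h2
      have : (i * c⁻¹ * i⁻¹)⁻¹ = (c⁻¹)⁻¹ := by rw [h2]
      calc i * c * i⁻¹ = (i * c⁻¹ * i⁻¹)⁻¹ := by group
        _ = c := by rw [this, inv_inv]
  rw [hinv] at h3
  calc c * c = c * c⁻¹ := by rw [h3]
    _ = 1 := mul_inv_cancel c

section Bender

variable {Ω : Type*} [MulAction G Ω]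

/-- every involution fixes exactly one point -/
def UniqueFix (G Ω : Type*) [Group G] [MulAction G Ω] : Prop :=
  ∀ a : G, orderOf a = 2 → ∃! p : Ω, a • p = p

theorem UniqueFix.eq (h : UniqueFix G Ω) {a : G} (ha : orderOf a = 2) {p q : Ω} (hp : a • p = p)
    (hq : a • q = q) : p = q :=
  (h a ha).unique hp hq

theorem UniqueFix.odd_mul [Finite G] (h : UniqueFix G Ω) {a b : G} (ha : orderOf a = 2)
    (hb : orderOf b = 2) {p q : Ω} (hp : a • p = p) (hq : b • q = q) (hne : p ≠ q) :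
    Odd (orderOf (b * a)) := by
  by_contra hodd
  rw [Nat.not_odd_iff_even] at hodd
  obtain ⟨w, hw, hwa, hwb⟩ :=
    exists_central_invol_of_even (sq_of_orderOf_two ha) (sq_of_orderOf_two hb) hodd
  obtain ⟨r, hr, -⟩ := h w hw
  have h1 : a • r = r := by
    apply h.eq hw _ hr
    rw [smul_smul, hwa.eq, mul_smul, hr]
  have h2 : b • r = r := by
    apply h.eq hw _ hr
    rw [smul_smul, hwb.eq, mul_smul, hr]
  exact hne ((h.eq ha hp h1).trans (h.eq hb h2 hq))

theorem UniqueFix.exists_swap [Finite G] (h : UniqueFix G Ω) {x y : Ω} (hxy : x ≠ y) {s t : G}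
    (hs : orderOf s = 2) (hsy : s • y = y) (ht : orderOf t = 2) (htx : t • x = x) :
    ∃ i : G, orderOf i = 2 ∧ i • x = y ∧ i * t * i⁻¹ = s := by
  have htt := sq_of_orderOf_two ht
  have hti := inv_of_orderOf_two ht
  obtain ⟨j, hj1, hj2⟩ := exists_conj_of_odd htt (sq_of_orderOf_two hs) (h.odd_mul ht hs htx hsy hxy)
  generalize (s * t) ^ j = k at hj1 hj2
  have hconj : (k * t) * t * (k * t)⁻¹ = s := by
    rw [← hj2]; group
  have hne : k * t ≠ 1 := by
    intro h1
    rw [h1] at hconj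
    apply hxy
    have : t = s := by simpa using hconj
    exact h.eq ht htx (this ▸ hsy)
  have hsq : (k * t) * (k * t) = 1 := by
    calc (k * t) * (k * t) = k * (t * k * t) := by group
      _ = k * (t * k * t⁻¹) := by rw [hti]
      _ = 1 := by rw [hj1, mul_inv_cancel]
  refine ⟨k * t, orderOf_eq_two_of hne hsq, ?_, hconj⟩
  apply h.eq hs _ hsy
  have : s * (k * t) = (k * t) * t := by
    rw [← hconj]; group
  rw [smul_smul, this, mul_smul, htx]

theorem card_invol_stabilizer_smul (g : G) (x : Ω) :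
    Nat.card {t : G // orderOf t = 2 ∧ t • (g • x) = g • x}
      = Nat.card {t : G // orderOf t = 2 ∧ t • x = x} := by
  apply Nat.card_congr
  refine Equiv.subtypeEquiv (MulAut.conj g⁻¹).toEquiv ?_
  intro t
  have e : (MulAut.conj g⁻¹).toEquiv t = g⁻¹ * t * g := by simp
  rw [e]
  constructor
  · rintro ⟨h1, h2⟩
    refine ⟨orderOf_conj_two' h1 g, ?_⟩
    rw [mul_smul, mul_smul, h2, smul_smul, inv_mul_cancel, one_smul]
  · rintro ⟨h1, h2⟩
    constructor
    · have := orderOf_conj_two h1 g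
      have e2 : g * (g⁻¹ * t * g) * g⁻¹ = t := by group
      rwa [e2] at this
    · have : t • g • x = g • ((g⁻¹ * t * g) • x) := by
        rw [smul_smul, smul_smul]; congr 1; group
      rw [this, h2]

theorem UniqueFix.le_card_swap [Finite G] (h : UniqueFix G Ω) {x y : Ω} (hxy : x ≠ y) {s : G}
    (hs : orderOf s = 2) (hsy : s • y = y) :
    Nat.card {t : G // orderOf t = 2 ∧ t • x = x} ≤ Nat.card {i : G // orderOf i = 2 ∧ i • x = y} := by
  classical
  have hex : ∀ t : {t : G // orderOf t = 2 ∧ t • x = x},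
      ∃ i : G, orderOf i = 2 ∧ i • x = y ∧ i * t.1 * i⁻¹ = s :=
    fun t => h.exists_swap hxy hs hsy t.2.1 t.2.2
  choose f hf using hex
  apply Nat.card_le_card_of_injective
    (fun t => (⟨f t, (hf t).1, (hf t).2.1⟩ : {i : G // orderOf i = 2 ∧ i • x = y}))
  intro t t' htt'
  have h1 : f t = f t' := congrArg Subtype.val htt'
  apply Subtype.ext
  have h2 := (hf t).2.2
  have h3 := (hf t').2.2
  rw [← h1] at h3
  have : f t * t.1 * (f t)⁻¹ = f t * t'.1 * (f t)⁻¹ := h2.trans h3.symm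
  simpa using this

open Finset in
theorem UniqueFix.card_swap [Finite G] [Finite Ω] [MulAction.IsPretransitive G Ω] (h : UniqueFix G Ω)
    (hex : ∃ a : G, orderOf a = 2) (x₀ : Ω) {x y : Ω} (hxy : x ≠ y) :
    Nat.card {i : G // orderOf i = 2 ∧ i • x = y} = Nat.card {t : G // orderOf t = 2 ∧ t • x₀ = x₀} := by
  classical
  haveI : Fintype G := Fintype.ofFinite G
  haveI : Fintype Ω := Fintype.ofFinite Ω
  set m := Nat.card {t : G // orderOf t = 2 ∧ t • x₀ = x₀} with hm
  have hM : ∀ z : Ω, Nat.card {t : G // orderOf t = 2 ∧ t • z = z} = m := by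
    intro z
    obtain ⟨g, rfl⟩ := MulAction.exists_smul_eq G x₀ z
    exact card_invol_stabilizer_smul g x₀
  have hexs : ∀ z : Ω, ∃ s : G, orderOf s = 2 ∧ s • z = z := by
    intro z
    obtain ⟨a, ha⟩ := hex
    obtain ⟨p, hp, -⟩ := h a ha
    obtain ⟨g, rfl⟩ := MulAction.exists_smul_eq G p z
    refine ⟨g * a * g⁻¹, orderOf_conj_two ha g, ?_⟩
    rw [smul_smul, inv_mul_cancel_right, mul_smul, hp]
  have hge : ∀ p ∈ (univ : Finset Ω).offDiag,
      m ≤ #((univ.filter (fun i : G => orderOf i = 2)).bipartiteBelow (fun i (p : Ω × Ω) => i • p.1 = p.2) p) := by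
    intro p hp
    rw [mem_offDiag] at hp
    obtain ⟨s, hs, hsy⟩ := hexs p.2
    have := h.le_card_swap hp.2.2 hs hsy
    rw [hM, Nat.card_eq_fintype_card, Fintype.card_subtype] at this
    refine this.trans (le_of_eq ?_)
    congr 1
    ext i
    simp [mem_bipartiteBelow]
  have hI : #(univ.filter (fun i : G => orderOf i = 2)) * 1 = #(univ : Finset Ω) * m := by
    apply card_mul_eq_card_mul (fun (i : G) (z : Ω) => i • z = z)
    · intro i hi
      rw [mem_filter] at hi
      obtain ⟨p, hp, hp'⟩ := h i hi.2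
      rw [card_eq_one]
      refine ⟨p, ?_⟩
      ext z
      simp only [mem_bipartiteAbove, mem_univ, true_and, mem_singleton]
      exact ⟨fun hz => hp' z hz, fun hz => hz ▸ hp⟩
    · intro z _
      rw [← hM z, Nat.card_eq_fintype_card, Fintype.card_subtype]
      congr 1
      ext i
      simp [mem_bipartiteBelow]
  have habove : ∀ i ∈ univ.filter (fun i : G => orderOf i = 2),
      #((univ : Finset Ω).offDiag.bipartiteAbove (fun i (p : Ω × Ω) => i • p.1 = p.2) i)
        = #(univ : Finset Ω) - 1 := by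
    intro i hi
    rw [mem_filter] at hi
    obtain ⟨p, hp, hp'⟩ := h i hi.2
    have : (univ : Finset Ω).offDiag.bipartiteAbove (fun i (p : Ω × Ω) => i • p.1 = p.2) i
        = ((univ : Finset Ω).erase p).image (fun z => (z, i • z)) := by
      ext ⟨a, b⟩
      simp only [mem_bipartiteAbove, mem_offDiag, mem_univ, true_and, mem_image, mem_erase, ne_eq,
        and_true, Prod.mk.injEq]
      constructor
      · rintro ⟨hab, rfl⟩
        exact ⟨a, fun ha => hab (by rw [ha, hp]), rfl, rfl⟩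
      · rintro ⟨z, hz, rfl, rfl⟩
        exact ⟨fun hz' => hz (hp' z hz'.symm), rfl⟩
    rw [this, card_image_of_injective _ (fun a b hab => (Prod.mk.inj hab).1),
      card_erase_of_mem (mem_univ p)]
  have hsum := sum_card_bipartiteAbove_eq_sum_card_bipartiteBelow
    (s := univ.filter (fun i : G => orderOf i = 2)) (t := (univ : Finset Ω).offDiag)
    (fun i (p : Ω × Ω) => i • p.1 = p.2)
  rw [sum_congr rfl habove, sum_const, smul_eq_mul] at hsum
  have hsum2 : ∑ p ∈ (univ : Finset Ω).offDiag, m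
      = ∑ p ∈ (univ : Finset Ω).offDiag,
        #((univ.filter (fun i : G => orderOf i = 2)).bipartiteBelow (fun i (p : Ω × Ω) => i • p.1 = p.2) p) := by
    rw [← hsum, sum_const, smul_eq_mul, offDiag_card]
    rw [mul_one] at hI
    rw [hI, Nat.mul_sub, Nat.sub_mul, mul_one]
    congr 1
    ring
  have := (sum_eq_sum_iff_of_le hge).mp hsum2 (x, y) (by simp [hxy])
  rw [this, Nat.card_eq_fintype_card, Fintype.card_subtype]
  congr 1
  ext i
  simp [mem_bipartiteBelow]

theorem UniqueFix.swap_unique [Finite G] (h : UniqueFix G Ω) {x y : Ω} (hxy : x ≠ y) {t i i' u : G}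
    (ht : orderOf t = 2) (htx : t • x = x) (hio : orderOf i = 2) (hix : i • x = y)
    (hi'o : orderOf i' = 2) (hi'x : i' • x = y)
    (h1 : (u * i) * t * (u * i)⁻¹ = (u * i') * t * (u * i')⁻¹) : i = i' := by
  have hi := sq_of_orderOf_two hio
  have hi' := sq_of_orderOf_two hi'o
  have hiinv := inv_of_orderOf_two hio
  have hi'inv := inv_of_orderOf_two hi'o
  -- `c = i i'` centralizes `t`
  have hc : t * (i * i') = (i * i') * t := by
    have e1 : (u * i)⁻¹ * ((u * i) * t * (u * i)⁻¹) * (u * i') = t * (i⁻¹ * i') := by group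
    have e2 : (u * i)⁻¹ * ((u * i') * t * (u * i')⁻¹) * (u * i') = (i⁻¹ * i') * t := by group
    rw [h1, e2, hiinv] at e1
    exact e1.symm
  have hinv : i * (i * i') * i⁻¹ = (i * i')⁻¹ := by
    rw [mul_inv_rev, hiinv, hi'inv, ← mul_assoc, hi, one_mul]
  -- fixed point of `i`
  obtain ⟨p, hp, -⟩ := h i hio
  have hpx : x ≠ p := by
    intro hxp
    apply hxy
    rw [← hix, hxp, hp]
  have hodd := h.odd_mul ht hio htx hp hpx
  have hsq := sq_eq_one_of_centralizes_of_inverts (sq_of_orderOf_two ht) hi hodd hc hinv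
  have hiy : i • y = x := by rw [← hix, smul_smul, hi, one_smul]
  have hi'y : i' • y = x := by rw [← hi'x, smul_smul, hi', one_smul]
  have hcx : (i * i') • x = x := by rw [mul_smul, hi'x, hiy]
  have hcy : (i * i') • y = y := by rw [mul_smul, hi'y, hix]
  have hc1 : i * i' = 1 := by
    by_contra hne
    exact hxy (h.eq (orderOf_eq_two_of hne hsq) hcx hcy)
  calc i = i * (i' * i') := by rw [hi', mul_one]
    _ = (i * i') * i' := by group
    _ = i' := by rw [hc1, one_mul]

/-- the two point stabilizer is transitive on the involutions of a point stabilizer; more precisely the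
elements `u i`, `i` an involution mapping `x` to `u x`, form a regular set. -/
theorem UniqueFix.exists_conj_of_swap [Finite G] [Finite Ω] [MulAction.IsPretransitive G Ω]
    (h : UniqueFix G Ω) {u : G} (hu : orderOf u = 2) {x : Ω} (hux : u • x ≠ x) {s t : G}
    (hs : orderOf s = 2) (hsx : s • x = x) (ht : orderOf t = 2) (htx : t • x = x) :
    ∃ d : G, d • x = x ∧ d • (u • x) = u • x ∧ u * d * u⁻¹ = d⁻¹ ∧ d * t * d⁻¹ = s := by
  classical
  have huu := sq_of_orderOf_two hu
  have hui := inv_of_orderOf_two hu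
  have hfix : ∀ i : {i : G // orderOf i = 2 ∧ i • x = u • x}, (u * i.1) • x = x := by
    intro i
    rw [mul_smul, i.2.2, smul_smul, huu, one_smul]
  let φ : {i : G // orderOf i = 2 ∧ i • x = u • x} → {s : G // orderOf s = 2 ∧ s • x = x} :=
    fun i => ⟨(u * i.1) * t * (u * i.1)⁻¹, orderOf_conj_two ht _, by
      have h1 : (u * i.1)⁻¹ • x = x := by
        rw [inv_smul_eq_iff]; exact (hfix i).symm
      rw [mul_smul, mul_smul, h1, htx, hfix i]⟩
  have hinj : Function.Injective φ := by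
    rintro ⟨i, hio, hix⟩ ⟨i', hi'o, hi'x⟩ hii
    have h1 : (u * i) * t * (u * i)⁻¹ = (u * i') * t * (u * i')⁻¹ := congrArg Subtype.val hii
    apply Subtype.ext
    exact h.swap_unique (Ne.symm hux) ht htx hio hix hi'o hi'x h1
  have hcard := h.card_swap ⟨u, hu⟩ x (Ne.symm hux)
  have hbij := hinj.bijective_of_nat_card_le hcard.ge
  obtain ⟨⟨i, hio, hix⟩, hi⟩ := hbij.2 ⟨s, hs, hsx⟩
  have hii := sq_of_orderOf_two hio
  have hiinv := inv_of_orderOf_two hio
  refine ⟨u * i, hfix ⟨i, hio, hix⟩, ?_, ?_, congrArg Subtype.val hi⟩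
  · have e1 : i • (u • x) = x := by rw [← hix, smul_smul, hii, one_smul]
    rw [mul_smul, e1]
  · rw [mul_inv_rev, hui, hiinv, ← mul_assoc, huu, one_mul]

end Bender

section StronglyEmbedded

variable {H : Subgroup G}

theorem smul_mk_eq_iff (H : Subgroup G) (a g : G) :
    a • (QuotientGroup.mk g : G ⧸ H) = QuotientGroup.mk g ↔ g⁻¹ * a * g ∈ H := by
  rw [MulAction.Quotient.smul_mk, smul_eq_mul, QuotientGroup.eq, ← inv_mem_iff]
  have : ((a * g)⁻¹ * g)⁻¹ = g⁻¹ * a * g := by group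
  rw [this]

theorem smul_mk_one_eq_iff (H : Subgroup G) (a : G) :
    a • (QuotientGroup.mk 1 : G ⧸ H) = QuotientGroup.mk 1 ↔ a ∈ H := by
  rw [smul_mk_eq_iff]; simp

theorem smul_mk_one (H : Subgroup G) (u : G) :
    u • (QuotientGroup.mk 1 : G ⧸ H) = QuotientGroup.mk u := by
  rw [MulAction.Quotient.smul_mk, smul_eq_mul, mul_one]

theorem mk_one_ne_mk_iff (H : Subgroup G) (u : G) :
    (QuotientGroup.mk 1 : G ⧸ H) ≠ QuotientGroup.mk u ↔ u ∉ H := by
  rw [Ne, QuotientGroup.eq]; simp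

theorem mem_inf_conjMap_iff (H : Subgroup G) (u d : G) :
    d ∈ H ⊓ H.map (MulAut.conj u).toMonoidHom ↔
      (d • (QuotientGroup.mk 1 : G ⧸ H) = QuotientGroup.mk 1 ∧
        d • (QuotientGroup.mk u : G ⧸ H) = QuotientGroup.mk u) := by
  rw [Subgroup.mem_inf, smul_mk_one_eq_iff, smul_mk_eq_iff, mem_conjMap]

theorem strEmb_mem_of_conj_mem (hH : Cfsg.IsStronglyEmbedded H) {t g : G} (ht : orderOf t = 2)
    (htH : t ∈ H) (h : g⁻¹ * t * g ∈ H) : g ∈ H := by
  by_contra hg
  have h1 := hH.2.2 g hg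
  have h2 : 2 ∣ Nat.card (H ⊓ H.map (MulAut.conj g).toMonoidHom : Subgroup G) :=
    two_dvd_card_of_mem ht (Subgroup.mem_inf.mpr ⟨htH, mem_conjMap.mpr h⟩)
  exact (Nat.not_even_iff_odd.mpr h1) (even_iff_two_dvd.mpr h2)

theorem strEmb_exists_invol [Finite G] (hH : Cfsg.IsStronglyEmbedded H) : ∃ t ∈ H, orderOf t = 2 :=
  exists_invol_of_not_odd (Nat.not_odd_iff_even.mpr hH.2.1)

theorem strEmb_uniqueFix [Finite G] (hH : Cfsg.IsStronglyEmbedded H) : UniqueFix G (G ⧸ H) := by
  intro a ha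
  obtain ⟨t, htH, ht⟩ := strEmb_exists_invol hH
  have hex : ∃ p : G ⧸ H, a • p = p := by
    by_cases haH : a ∈ H
    · exact ⟨QuotientGroup.mk 1, (smul_mk_one_eq_iff H a).mpr haH⟩
    · have hodd : Odd (orderOf (a * t)) := by
        by_contra hodd
        rw [Nat.not_odd_iff_even] at hodd
        obtain ⟨w, hw, hwt, hwa⟩ :=
          exists_central_invol_of_even (sq_of_orderOf_two ht) (sq_of_orderOf_two ha) hodd
        have hwH : w ∈ H := by
          apply strEmb_mem_of_conj_mem hH ht htH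
          rw [mul_assoc, ← hwt.eq, inv_mul_cancel_left]
          exact htH
        apply haH
        apply strEmb_mem_of_conj_mem hH hw hwH
        rw [mul_assoc, hwa.eq, inv_mul_cancel_left]
        exact hwH
      obtain ⟨j, -, hj⟩ := exists_conj_of_odd (sq_of_orderOf_two ht) (sq_of_orderOf_two ha) hodd
      refine ⟨QuotientGroup.mk ((a * t) ^ j), ?_⟩
      rw [smul_mk_eq_iff]
      nth_rewrite 2 [← hj]
      have : ((a * t) ^ j)⁻¹ * ((a * t) ^ j * t * ((a * t) ^ j)⁻¹) * (a * t) ^ j = t := by group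
      rw [this]
      exact htH
  obtain ⟨p, hp⟩ := hex
  refine ⟨p, hp, ?_⟩
  intro q hq
  induction p using QuotientGroup.induction_on with
  | H g =>
  induction q using QuotientGroup.induction_on with
  | H g' =>
  rw [smul_mk_eq_iff] at hp hq
  rw [eq_comm, QuotientGroup.eq]
  apply strEmb_mem_of_conj_mem hH (orderOf_conj_two' ha g) hp
  have : (g⁻¹ * g')⁻¹ * (g⁻¹ * a * g) * (g⁻¹ * g') = g'⁻¹ * a * g' := by group
  rw [this]
  exact hq

end StronglyEmbedded

end Cfsg.Agent.Lib.Helper8
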